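import Mathlib
import Cfsg.Agent.Lib.ZJ.FunctorApp
import Cfsg.Agent.Lib.HH.General
import Cfsg.Agent.Lib.CFun.Trace
import Cfsg.Agent.Lib.PLocal.ElemRep
import Cfsg.Agent.Auto.Cfsg_iterCommutator_eq_def

/-!
# Elements of small degree on chief factors when a Sylow `p`-subgroup is a maximal subgroup
-/

set_option autoImplicit false

namespace CfsgLib.ZJ

open Cfsg Subgroup CfsgLib.Tech CfsgLib.CFun CfsgLib.PLocal
open scoped commutatorElement

variable {p : ℕ} [hp : Fact p.Prime] {G : Type*} [Group G] [Finite G]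

theorem exists_isPGroup_of_isCoatom {K S : Subgroup G} [K.Normal] (hK : (Nat.card K).Coprime p)
    (hS : IsPGroup p S) (hm : IsCoatom S) (h1 : K ≠ ⊥) : ∃ q, q.Prime ∧ p ≠ q ∧ IsPGroup q K := by
  obtain ⟨q, hq, hqK⟩ := Nat.exists_prime_and_dvd (n := Nat.card K) fun h => h1 (card_eq_one.1 h)
  have : Fact q.Prime := ⟨hq⟩
  have hcomm := isMulCommutative_of_isCoatom hK hS hm
  obtain ⟨R, hR⟩ := exists_isSylowIn q K
  refine ⟨q, hq, ?_, eq_of_isCoatom_of_le_normalizer hK hS hm hR.le (fun s _ => ?_) ?_ ▸ hR.pgroup⟩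
  · rintro rfl
    exact hq.one_lt.ne' (Nat.Coprime.eq_one_of_dvd hK.symm hqK)
  · obtain ⟨g, hg, h⟩ := hR.exists_cj_eq (hR.cj_of_mem_normalizer (g := s) (le_normalizer_of_normal (mem_top s)))
    rw [mem_normalizer_iff_cj, ← h, ← mem_normalizer_iff_cj]
    refine mem_normalizer_of_forall fun x hx => ?_
    rwa [mul_comm_of_isMulCommutative hcomm hg (hR.le hx), mul_inv_cancel_right]
  · rintro rfl
    exact hR.not_dvd (by rwa [relIndex_bot_left])

theorem le_ker_of_sub_one_pow {K S : Subgroup G} [K.Normal] (hK : (Nat.card K).Coprime p)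
    (hS : IsPGroup p S) (hm : IsCoatom S) (hO : pCore p G = ⊥) {M : Type*} [AddCommGroup M]
    [Module (ZMod p) M] [Finite M] (ρ : Representation (ZMod p) G M) {g : G} (hg : g ∈ S) (hg1 : g ≠ 1)
    (h : (ρ g - 1) ^ (p - 1) = 0) : K ≤ MonoidHom.ker ρ := by
  by_cases h1 : K = ⊥
  · exact h1 ▸ bot_le
  rcases subsingleton_or_nontrivial M with hM | hM
  · exact fun _ _ => Subsingleton.elim _ _
  by_contra hne
  have hZ : K ⊓ MonoidHom.ker ρ = ⊥ := by
    by_contra hZ
    exact hne (inf_eq_left.1 (eq_of_isCoatom_of_le_normalizer hK hS hm inf_le_left le_normalizer_of_normal hZ))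
  have hKS : K ⊔ S = ⊤ := by
    refine hm.2 _ (lt_of_le_of_ne le_sup_right fun h' => h1 ?_)
    rw [← Core.isPGroup_inf_eq_bot_of_coprime hS hK, eq_comm, inf_eq_right]
    exact le_sup_left.trans h'.ge
  obtain ⟨q, hq, hpq, hKq⟩ := exists_isPGroup_of_isCoatom hK hS hm h1
  have : Fact q.Prime := ⟨hq⟩
  have hcomm := isMulCommutative_of_isCoatom hK hS hm
  have : CharP (Module.End (ZMod p) M) p :=
    charP_of_injective_algebraMap (algebraMap (ZMod p) _).injective p
  have hgp : ρ g ^ p ^ (0 + 1) = 1 := by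
    have := sub_pow_char_of_commute p (Commute.one_right (ρ g))
    rw [one_pow] at this
    rw [zero_add, pow_one, ← sub_eq_zero, ← this]
    exact pow_eq_zero_of_le (Nat.sub_le p 1) h
  rcases HH.hh hp.out hpq (by rw [Ne, ZMod.natCast_eq_zero_iff, Nat.prime_dvd_prime_iff_eq hp.out hq]; exact hpq)
    ρ K g 0 hKq (le_normalizer_of_normal (mem_top g)) hgp (by
      by_contra hc
      push Not at hc
      have hn : (S ⊓ 𝐂(K)).Normal := by
        rw [← normalizer_eq_top_iff, eq_top_iff, ← hKS]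
        exact sup_le ((le_centralizer_iff.2 inf_le_right).trans (centralizer_le_normalizer _))
          (Coprime.le_normalizer_inf le_normalizer le_normalizer_of_normal)
      have h2 : g ∈ S ⊓ 𝐂(K) := ⟨hg, fun k hk => by
        have h3 : g * k * g⁻¹ * k⁻¹ ∈ K ⊓ MonoidHom.ker ρ :=
          ⟨K.mul_mem (Normal.conj_mem inferInstance k hk g) (K.inv_mem hk),
            (HH.comm_iff_apply_eq_one ρ g k).1 (by simpa using hc k hk)⟩
        rw [hZ, mem_bot, mul_inv_eq_one, mul_inv_eq_iff_eq_mul] at h3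
        exact h3.symm⟩
      exact hg1 (mem_bot.1 (hO ▸ Core.le_pCore (hS.to_le inf_le_left) h2))) with
    h2 | ⟨-, -, -, -, -, -, -, ⟨a, ha, b, hb, h2⟩, -⟩
  · have := h2.le_of_sub_one_pow h
    rw [zero_add, pow_one] at this
    have := hp.out.one_le
    omega
  · exact h2 (by rw [← map_mul, ← map_mul, mul_comm_of_isMulCommutative hcomm ha hb])

omit [Finite G] hp in
theorem rep_sub_one_pow_eq_zero {V H : Subgroup G} (hV : IsElementaryAbelian p V) (hH : H ≤ 𝐍(V)) (g : H)
    {n : ℕ} (h : iterCommutator V (zpowers (g : G)) n = ⊥) : (ElemMod.rep hV hH g - 1) ^ n = 0 := by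
  have key : ∀ (n : ℕ) (x : ElemMod hV),
      (((ElemMod.rep hV hH g - 1) ^ n) x).toG ∈ iterCommutator V (zpowers (g : G)) n := by
    intro n x
    induction n with
    | zero => exact x.toG_mem
    | succ n ih =>
      rw [pow_succ', Module.End.mul_apply, LinearMap.sub_apply, Module.End.one_apply, ElemMod.toG_rep_sub,
        iterCommutator, Subgroup.commutator_comm]
      exact commutator_mem_commutator (mem_zpowers _) ih
  ext x
  exact ElemMod.toG_eq_one.1 (mem_bot.1 (h ▸ key n x))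

/-- If `G / O_p(G)` is `p`-nilpotent and a Sylow `p`-subgroup `S` is maximal, an element of `S` outside `O_p(G)` of
degree at most `p - 1` on a chief factor inside `O_p(G)` centralizes that chief factor. -/
theorem commutator_le_of_iterCommutator_le {S : Subgroup G} (hS : IsSylowIn p S ⊤)
    (hG : HasNormalPComplement p (G ⧸ pCore p G)) (hm : IsCoatom S) {g : G} (hg : g ∈ S)
    (hgO : g ∉ pCore p G) {U V : Subgroup G} (hUV : IsChiefFactor U V) (hU : U ≤ pCore p G)
    (h : iterCommutator U (zpowers g) (p - 1) ≤ V) : ⁅U, zpowers g⁆ ≤ V := by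
  have := hUV.2.1
  have := hUV.2.2.1
  have hf := QuotientGroup.mk'_surjective (pCore p G)
  have hQS : pCore p G ≤ S := pCore_le_sylIn' hS
  have := Transfer.pResidual_normal p (G ⧸ pCore p G)
  have hUO := chief_commutator_le hUV (Core.isPGroup_pCore p G) hU
  have hker : ∀ {A : Subgroup G}, A.map (QuotientGroup.mk' V) = ⊥ ↔ A ≤ V := by
    intro A
    rw [Subgroup.map_eq_bot_iff, QuotientGroup.ker_mk']
  have hcen : ∀ {A : Subgroup G}, A.map (QuotientGroup.mk' V) ≤ 𝐂(U.map (QuotientGroup.mk' V)) ↔ ⁅U, A⁆ ≤ V := by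
    intro A
    rw [← hker, Subgroup.map_commutator, le_centralizer_iff, commutator_eq_bot_iff_le_centralizer]
  have hE : IsElementaryAbelian p (U.map (QuotientGroup.mk' V)) :=
    ⟨le_centralizer_iff_isMulCommutative.1 (hcen.2 ((commutator_mono le_rfl hU).trans hUO)), by
      rintro _ ⟨u, hu, rfl⟩
      rw [← map_pow, QuotientGroup.mk'_apply, QuotientGroup.eq_one_iff]
      exact chief_pow_mem hUV ((Core.isPGroup_pCore p G).to_le hU) hu⟩
  have hn : (U.map (QuotientGroup.mk' V)).Normal := Normal.map inferInstance _ (QuotientGroup.mk'_surjective V)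
  let ρ : Representation (ZMod p) G (ElemMod hE) :=
    (ElemMod.rep hE (H := ⊤) le_normalizer_of_normal).comp ((QuotientGroup.mk' V).codRestrict ⊤ fun _ => mem_top _)
  have hρ : ∀ x : G, ρ x = 1 ↔ QuotientGroup.mk' V x ∈ 𝐂(U.map (QuotientGroup.mk' V)) := fun x =>
    ElemMod.rep_eq_one_iff (H := ⊤) le_normalizer_of_normal _
  have hK := le_ker_of_sub_one_pow (Transfer.hasNormalPComplement_iff_coprime.1 hG) (hS.pgroup.map _)
    (isCoatom_map_of_ker_le hf (by rwa [QuotientGroup.ker_mk']) hm) (Core.pCore_quotient_pCore p G)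
    (QuotientGroup.lift (pCore p G) ρ fun x hx => (hρ x).2 (hcen.2 hUO (mem_map_of_mem _ hx)))
    (mem_map_of_mem _ hg) (by rwa [Ne, QuotientGroup.mk'_apply, QuotientGroup.eq_one_iff])
    (rep_sub_one_pow_eq_zero hE (H := ⊤) le_normalizer_of_normal _ (by
      change iterCommutator _ (zpowers (QuotientGroup.mk' V g)) _ = ⊥
      rwa [← MonoidHom.map_zpowers, ← map_iterCommutator, hker]))
  have hW := Coprime.inf_centralizer_ne_bot_of_isPGroup (hS.pgroup.map (QuotientGroup.mk' V)) _
    (((Core.isPGroup_pCore p G).to_le hU).map (QuotientGroup.mk' V)) le_normalizer_of_normal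
    fun h' => hUV.1.not_ge (hker.1 h')
  set W := U.map (QuotientGroup.mk' V) ⊓ 𝐂(S.map (QuotientGroup.mk' V)) with hWdef
  have hWc : ∀ x : G, QuotientGroup.mk' V x ∈ 𝐂(W) := by
    intro x
    have h1 := Transfer.pResidual_sup_sylow
      (isSylowIn_map_top hS (f := QuotientGroup.mk' (pCore p G)) hf).toSylowTop
    obtain ⟨k, hk, _, ⟨s, hs, rfl⟩, hks⟩ := mem_sup_of_normal_left.1 (h1.ge (mem_top (QuotientGroup.mk' _ x)))
    have h2 : ρ (x * s⁻¹) = 1 := by
      have := hK hk
      rwa [eq_mul_inv_of_mul_eq hks, ← map_inv, ← map_mul] at this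
    rw [← inv_mul_cancel_right x s, map_mul]
    exact mul_mem (centralizer_le inf_le_left ((hρ _).1 h2))
      (le_centralizer_iff.1 inf_le_right (mem_map_of_mem _ hs))
  have hWn : W.Normal := by
    rw [← normalizer_eq_top_iff, eq_top_iff]
    intro y _
    obtain ⟨x, rfl⟩ := QuotientGroup.mk'_surjective V y
    exact centralizer_le_normalizer _ (hWc x)
  rcases hUV.2.2.2 (U ⊓ W.comap (QuotientGroup.mk' V)) inferInstance
    (le_inf hUV.1.le fun v hv => by
      rw [mem_comap, QuotientGroup.mk'_apply, (QuotientGroup.eq_one_iff v).2 hv]; exact one_mem _)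
    inf_le_left with h1 | h1
  · refine (hW (eq_bot_iff.2 fun w hw => ?_)).elim
    obtain ⟨u, hu, rfl⟩ := hw.1
    exact (QuotientGroup.eq_one_iff u).2 (h1.le ⟨hu, hw⟩)
  · rw [← hcen, MonoidHom.map_zpowers, zpowers_le]
    exact centralizer_le (map_le_iff_le_comap.2 (h1.ge.trans inf_le_right)) (hWc g)

end CfsgLib.ZJ
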