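import Mathlib
import Cfsg.Agent.Lib.ZJ.QdInvolve
import Cfsg.Agent.Lib.Fusion.HSec
import Cfsg.Agent.Lib.Transfer.ThompsonNPC

/-!
# The largest subgroup normal in the `p`-fusion of a `Qd(p)`-free group is centric and radical
-/

set_option autoImplicit false

namespace CfsgLib.ZJ

open Cfsg Subgroup CfsgLib.Tech CfsgLib.CFun CfsgLib.PLocal
open scoped commutatorElement MatrixGroups

universe u

variable {p : ℕ} [hp : Fact p.Prime]

omit hp in
/-- The preimage of `W(D Q / Q)` may be computed in any subgroup containing `D` and `Q`. -/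
theorem IsSubFunctor.comap_mk_subgroupOf {W : ∀ (X : Type u) [Group X], Subgroup X → Subgroup X}
    (hW : IsSubFunctor p W) {X : Type u} [Group X] [Finite X] {D Q Y : Subgroup X} [Q.Normal]
    (hD : IsPGroup p D) (hDY : D ≤ Y) :
    ((W _ (D.map (QuotientGroup.mk' Q))).comap (QuotientGroup.mk' Q)).subgroupOf Y =
      (W _ ((D.subgroupOf Y).map (QuotientGroup.mk' (Q.subgroupOf Y)))).comap
        (QuotientGroup.mk' (Q.subgroupOf Y)) := by
  let j : Y ⧸ Q.subgroupOf Y →* X ⧸ Q := QuotientGroup.map _ _ Y.subtype le_rfl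
  have hj : Function.Injective j := by
    rw [injective_iff_map_eq_one]
    intro y hy
    obtain ⟨y, rfl⟩ := QuotientGroup.mk_surjective y
    exact (QuotientGroup.eq_one_iff y).2 ((QuotientGroup.eq_one_iff (y : X)).1 hy)
  have h1 : j.comp (QuotientGroup.mk' (Q.subgroupOf Y)) = (QuotientGroup.mk' Q).comp Y.subtype := rfl
  have h2 : D.map (QuotientGroup.mk' Q) =
      ((D.subgroupOf Y).map (QuotientGroup.mk' (Q.subgroupOf Y))).map j := by
    rw [map_map, h1, ← map_map, map_subgroupOf_eq_of_le hDY]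
  have h3 : IsPGroup p (D.subgroupOf Y) := hD.comap_subtype
  rw [h2, ← hW.map_inj hj (h3.map _), subgroupOf, comap_comap, ← h1, ← comap_comap,
    comap_map_eq_self_of_injective hj]

/-- A normal `p`-subgroup which is not centric is properly contained in a subgroup whose
normalizer controls fusion. -/
theorem exists_fusGen_gt_of_normal (hp2 : p ≠ 2) {X : Type u} [Group X] [Finite X]
    (hX : ¬ Involves (qd p) X) {S Q : Subgroup X} [Q.Normal] (hS : IsSylowIn p S ⊤) (hQ : Q ≤ S)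
    (hc : ¬ S ⊓ 𝐂(Q) ≤ Q) : ∃ W, Q < W ∧ W ≤ S ∧ S ≤ 𝐍(W) ∧ FusGen 𝐍(W) ⊤ S := by
  have hW := isSubFunctor_zj.{u} (p := p) (e := 0) (Or.inl rfl)
  set D := S ⊓ (Q ⊔ 𝐂(Q)) with hDdef
  have hD : IsStronglyClosed D S := ⟨inf_le_left, fun x hx g hgx =>
    ⟨hgx, Normal.conj_mem inferInstance x hx.2 g⟩⟩
  have hDp : IsPGroup p D := hS.pgroup.to_inf_left
  have hQD : Q ≤ D := le_inf hQ le_sup_left
  have hf := QuotientGroup.mk'_surjective Q
  set f := QuotientGroup.mk' Q with hfdef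
  have hker : f.ker = Q := QuotientGroup.ker_mk' Q
  set V := (zj 0 (D.map f)).comap f with hV
  have hVD : V ≤ D := by
    rw [← comap_map_eq_self (f := f) (hker.le.trans hQD)]
    exact comap_mono (zj_le _)
  have hN : 𝐍(D) ≤ 𝐍(V) := by
    rw [hV, ← comap_normalizer_eq_of_surjective _ hf]
    exact map_le_iff_le_comap.1 ((le_normalizer_map f).trans (normalizer_le_normalizer_zj _))
  have hSV : S ≤ 𝐍(V) := (le_normalizer_of_stronglyClosed hD).trans hN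
  refine ⟨V, lt_of_le_of_ne (hker ▸ ker_le_comap _ _) fun h => ?_, hVD.trans hD.1, hSV, ?_⟩
  · refine zj_ne_bot (Or.inl rfl) (hDp.map f) (fun h0 => hc ?_) ?_
    · rw [Subgroup.map_eq_bot_iff, hker] at h0
      exact (inf_le_inf_left _ le_sup_right).trans h0
    · rw [← map_comap_eq_self_of_surjective hf (zj 0 _), ← hV, ← h, Subgroup.map_eq_bot_iff, hker]
  refine (fusGen_sup_union_normalizer hS (Q ⊔ 𝐂(Q))).bind ?_
  rintro x (hx | hx) A hA hxA
  swap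
  · exact Reach.single (hN hx) hxA
  set Y := S ⊔ (Q ⊔ 𝐂(Q)) with hY
  have hSY : S ≤ Y := le_sup_left
  have hS' : IsSylowIn p (S.subgroupOf Y) ⊤ :=
    isSylowIn_subgroupOf_top (by rw [inf_eq_left.2 hSY]; exact hS.of_le hSY le_top)
  have hf' := QuotientGroup.mk'_surjective (Q.subgroupOf Y)
  have hD' := isStronglyClosed_map_of_ker_le (isStronglyClosed_subgroupOf hD Y) hf'
    (by rw [QuotientGroup.ker_mk']; exact comap_mono hQ)
  have h1 := fusGen_comap_of_sup_centralizer (Q := Q.subgroupOf Y) hS' (comap_mono hQ) (by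
      rw [Transfer.centralizer_subgroupOf_eq (hQ.trans hSY), ← subgroupOf_sup hSY
        (le_sup_right.trans le_sup_right), subgroupOf_eq_top, hY]
      exact sup_le le_sup_left (sup_le (hQ.trans le_sup_left) le_sup_right))
    (hW.le_norm_of_stronglyClosed (hS'.pgroup.map _) hD')
    (fusGen_zj hp2 (Or.inl rfl) (fun Z _ _ hZ => quadStable_of_not_involves_qd hp2 fun h' =>
      hX (involves_trans h' (involves_trans hZ (involves_trans (involves_quotient _)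
        (involves_subgroup Y))))) (isSylowIn_map_top hS' hf') hD')
  rw [comap_normalizer_eq_of_surjective _ hf',
    ← hW.comap_mk_subgroupOf hDp (hD.1.trans hSY)] at h1
  have h2 := fusGen_of_subtype h1
  rw [inf_eq_left.2 hSY] at h2
  refine (h2 A hA x hx hxA).mono ?_ le_rfl
  refine (le_normalizer_map Y.subtype).trans (le_of_eq ?_)
  rw [map_subgroupOf_eq_of_le (hVD.trans (hD.1.trans hSY))]

/-- Normal overgroups of `Q C(Q)` of `p`-power index for a centric normal `p`-subgroup `Q`. -/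
theorem fusGen_inf_of_normal {X : Type*} [Group X] [Finite X] {S Q Y : Subgroup X} [Q.Normal]
    [Y.Normal] (hS : IsSylowIn p S ⊤) (hQ : Q ≤ S) (hc : S ⊓ 𝐂(Q) ≤ Q) (hY : Q ⊔ 𝐂(Q) ≤ Y) {k : ℕ}
    (hk : (Q ⊔ 𝐂(Q)).relIndex Y = p ^ k) :
    (S ⊓ Y) ⊔ 𝐂(Q) = Y ∧ FusGen 𝐍(S ⊓ Y) ⊤ S := by
  have hR : IsSylowIn p (S ⊓ Y) Y := by
    simpa using hS.inf_of_le_normalizer (N := Y) le_normalizer_of_normal
  have hQR : Q ≤ S ⊓ Y := le_inf hQ (le_sup_left.trans hY)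
  have h1 : (S ⊓ Y) ⊔ 𝐂(Q) = Y := by
    have hle : (S ⊓ Y) ⊔ 𝐂(Q) ≤ Y := sup_le inf_le_right (le_sup_right.trans hY)
    refine le_antisymm hle (relIndex_eq_one.1 ?_)
    have h2 : ((S ⊓ Y) ⊔ 𝐂(Q)).relIndex Y ∣ p ^ k :=
      hk ▸ relIndex_dvd_of_le_left Y (sup_le_sup_right hQR _)
    obtain ⟨i, -, hi⟩ := (Nat.dvd_prime_pow hp.out).1 h2
    rcases i with _ | i
    · simpa using hi
    · exact absurd ((hi ▸ dvd_pow_self p i.succ_ne_zero).trans
        (relIndex_dvd_of_le_left Y le_sup_left)) hR.not_dvd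
  refine ⟨h1, ?_⟩
  have hC : IsSylowIn p (S ⊓ 𝐂(Q)) 𝐂(Q) := by
    simpa using hS.inf_of_le_normalizer (N := 𝐂(Q)) le_normalizer_of_normal
  have hnpc : HasNormalPComplement p 𝐂(Q) := by
    refine Transfer.burnside_normal_complement hC.toSylow fun x _ y hy => Subtype.ext ?_
    exact x.2 y (hc (hC.mem_toSylow.1 hy))
  have hch := Transfer.pResidual_characteristic p 𝐂(Q)
  set L := (pResidual p 𝐂(Q)).map (Subgroup.subtype _) with hL
  have hLc : (Nat.card L).Coprime p := by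
    rw [hL, card_map_of_injective (subtype_injective _)]
    exact Transfer.hasNormalPComplement_iff_coprime.1 hnpc
  have h3 : 𝐂(Q) ≤ L ⊔ (S ⊓ Y) := by
    have h4 := congrArg (Subgroup.map (Subgroup.subtype 𝐂(Q)))
      (Transfer.pResidual_sup_sylow hC.toSylow)
    rw [Subgroup.map_sup, hC.map_toSylow, ← MonoidHom.range_eq_map, range_subtype] at h4
    rw [← h4]
    exact sup_le_sup_left (hc.trans hQR) _
  refine fusGen_of_sup_eq_top (K := L) hLc hS.pgroup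
    (le_trans (le_inf le_normalizer le_normalizer_of_normal) inf_normalizer_le_normalizer_inf)
    (eq_top_iff.2 fun g _ => ?_)
  obtain ⟨n, hn, h5⟩ := hR.frattini (g := g) (le_normalizer_of_normal (mem_top g))
  have h6 : Y ≤ L ⊔ 𝐍(S ⊓ Y) := by
    conv_lhs => rw [← h1]
    exact sup_le (le_normalizer.trans le_sup_right) (h3.trans (sup_le_sup_left le_normalizer _))
  exact (mul_mem_cancel_left (h6 hn)).1 (mem_sup_right h5)

omit hp in
theorem fusGen_normalizer_map {G : Type*} [Group G] {S H : Subgroup G} (hSH : S ≤ H)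
    (h : FusGen H ⊤ S) {W : Subgroup H} (hW : FusGen 𝐍(W) ⊤ (S.subgroupOf H)) :
    FusGen 𝐍(W.map H.subtype) ⊤ S := by
  have h2 := fusGen_of_subtype hW
  rw [inf_eq_left.2 hSH] at h2
  exact h.bind fun x hx A hA hxA => (h2 A hA x hx hxA).mono (le_normalizer_map _) le_rfl

/-- In a `Qd(p)`-free group, `p` odd, there is a centric radical subgroup normal in the Sylow
subgroup `S` whose normalizer controls strong fusion in `S`. -/
theorem exists_centric_radical_fusGen (hp2 : p ≠ 2) {G : Type u} [Group G] [Finite G]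
    (hG : ¬ Involves (qd p) G) {S : Subgroup G} (hS : IsSylowIn p S ⊤) :
    ∃ Q ≤ S, S ≤ 𝐍(Q) ∧ FusGen 𝐍(Q) ⊤ S ∧ S ⊓ 𝐂(Q) ≤ Q ∧
      ∀ Y ≤ 𝐍(Q), 𝐍(Q) ≤ 𝐍(Y) → Q ⊔ 𝐂(Q) ≤ Y → (∃ k, (Q ⊔ 𝐂(Q)).relIndex Y = p ^ k) →
        Y = Q ⊔ 𝐂(Q) := by
  obtain ⟨Q, ⟨h1, h2, h3⟩, hmax⟩ := (wellFounded_gt (α := Subgroup G)).has_min
    {Q | Q ≤ S ∧ S ≤ 𝐍(Q) ∧ FusGen 𝐍(Q) ⊤ S} ⟨⊥, bot_le, by rw [normalizer_eq_top]; exact le_top,
      fusGen_self (by rw [normalizer_eq_top])⟩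
  have hS' : IsSylowIn p (S.subgroupOf 𝐍(Q)) ⊤ :=
    isSylowIn_subgroupOf_top (by rw [inf_eq_left.2 h2]; exact hS.of_le h2 le_top)
  have hQ' : Q.subgroupOf 𝐍(Q) ≤ S.subgroupOf 𝐍(Q) := comap_mono h1
  have hC : 𝐂(Q.subgroupOf 𝐍(Q)) = (𝐂(Q)).subgroupOf 𝐍(Q) :=
    Transfer.centralizer_subgroupOf_eq le_normalizer
  have key : ∀ W : Subgroup 𝐍(Q), Q.subgroupOf 𝐍(Q) ≤ W → W ≤ S.subgroupOf 𝐍(Q) →
      S.subgroupOf 𝐍(Q) ≤ 𝐍(W) → FusGen 𝐍(W) ⊤ (S.subgroupOf 𝐍(Q)) → W = Q.subgroupOf 𝐍(Q) := by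
    intro W k1 k2 k3 k4
    by_contra hne
    refine hmax (W.map (Subgroup.subtype _)) ⟨map_le_iff_le_comap.2 k2, ?_,
      fusGen_normalizer_map h2 h3 k4⟩ ?_
    · rw [← map_subgroupOf_eq_of_le h2]
      exact (map_mono k3).trans (le_normalizer_map _)
    · conv_lhs => rw [← map_subgroupOf_eq_of_le (le_normalizer (H := Q))]
      exact (map_lt_map_iff_of_injective (subtype_injective _)).2 (lt_of_le_of_ne k1 (Ne.symm hne))
  have hc' : S.subgroupOf 𝐍(Q) ⊓ 𝐂(Q.subgroupOf 𝐍(Q)) ≤ Q.subgroupOf 𝐍(Q) := by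
    by_contra hc
    obtain ⟨W, k1, k2, k3, k4⟩ := exists_fusGen_gt_of_normal hp2
      (fun h => hG (involves_trans h (involves_subgroup _))) hS' hQ' hc
    exact k1.ne' (key W k1.le k2 k3 k4)
  refine ⟨Q, h1, h2, h3, fun x hx => hc' (x := ⟨x, h2 hx.1⟩) ⟨hx.1, hC ▸ hx.2⟩,
    fun Y hY hYn hQY ⟨k, hk⟩ => ?_⟩
  have : (Y.subgroupOf 𝐍(Q)).Normal := normal_subgroupOf_of_le_normalizer hYn
  have hsup : Q.subgroupOf 𝐍(Q) ⊔ 𝐂(Q.subgroupOf 𝐍(Q)) = (Q ⊔ 𝐂(Q)).subgroupOf 𝐍(Q) := by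
    rw [hC, subgroupOf_sup le_normalizer (cent_le_norm Q)]
  obtain ⟨k1, k2⟩ := fusGen_inf_of_normal (Y := Y.subgroupOf 𝐍(Q)) (k := k) hS' hQ' hc'
    (hsup ▸ comap_mono hQY) (by rw [hsup, relIndex_subgroupOf hY, hk])
  rw [key (S.subgroupOf 𝐍(Q) ⊓ Y.subgroupOf 𝐍(Q))
    (le_inf hQ' (comap_mono (le_sup_left.trans hQY))) inf_le_left
    (le_trans (le_inf le_normalizer le_normalizer_of_normal) inf_normalizer_le_normalizer_inf) k2,
    hsup] at k1
  have := congrArg (Subgroup.map (Subgroup.subtype 𝐍(Q))) k1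
  rwa [map_subgroupOf_eq_of_le hY, map_subgroupOf_eq_of_le
    (sup_le le_normalizer (cent_le_norm Q)), eq_comm] at this

/-- A subgroup normal in the fusion lies in every centric radical subgroup. -/
theorem le_of_fusGen_of_centric_radical {G : Type*} [Group G] [Finite G] {S Q R : Subgroup G}
    (hS : IsPGroup p S) (hQ : Q ≤ S) (hSQ : S ≤ 𝐍(Q)) (h : FusGen 𝐍(Q) ⊤ S) (hR : R ≤ S)
    (hc : IsSylowIn p (R ⊓ 𝐂(R)) 𝐂(R))
    (hr : ∀ Y ≤ 𝐍(R), 𝐍(R) ≤ 𝐍(Y) → R ⊔ 𝐂(R) ≤ Y → (∃ k, (R ⊔ 𝐂(R)).relIndex Y = p ^ k) →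
      Y = R ⊔ 𝐂(R)) : Q ≤ R := by
  have hRC : R ⊔ 𝐂(R) ≤ 𝐍(R) := sup_le le_normalizer (cent_le_norm R)
  have hnC : 𝐍(R) ≤ 𝐍(R ⊔ 𝐂(R)) := le_trans
    (le_inf le_rfl (Core.normalizer_le_normalizer_centralizer _))
    (normalizer_inf_normalizer_le_normalizer_sup _ _)
  have h1 : (Q ⊓ 𝐍(R)) ⊔ (R ⊔ 𝐂(R)) = R ⊔ 𝐂(R) := by
    refine hr _ (sup_le inf_le_right hRC) (fun n hn => ?_) le_sup_right ?_
    · obtain ⟨x, hx, e⟩ := fusGen_subgroup_iff.1 h R n trivial hR (by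
        rintro _ ⟨a, ha, rfl⟩
        exact hR ((mem_normalizer_iff.1 hn a).1 ha))
      have hcx : x⁻¹ * n ∈ 𝐂(R) := mem_cent_iff.2 fun a ha => by
        calc x⁻¹ * n * a * (x⁻¹ * n)⁻¹ = x⁻¹ * (n * a * n⁻¹) * x := by group
          _ = a := by rw [← e a ha]; group
      have hxR : x ∈ 𝐍(R) := by
        have := mul_mem hn (inv_mem (cent_le_norm R hcx))
        simpa using this
      have h2 : x ∈ 𝐍((Q ⊓ 𝐍(R)) ⊔ (R ⊔ 𝐂(R))) := normalizer_inf_normalizer_le_normalizer_sup _ _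
        ⟨inf_normalizer_le_normalizer_inf ⟨hx, le_normalizer hxR⟩, hnC hxR⟩
      have h3 := mul_mem h2 (le_normalizer (mem_sup_right (mem_sup_right hcx)))
      simpa using h3
    · obtain ⟨k, hk⟩ := (hS.to_le (inf_le_left.trans hQ : Q ⊓ 𝐍(R) ≤ S)).index
        ((R ⊔ 𝐂(R)).subgroupOf (Q ⊓ 𝐍(R)))
      refine ⟨k, ?_⟩
      rw [relIndex_sup_of_le_normalizer (inf_le_right.trans hnC)]
      exact hk
  have h2 : Q ⊓ 𝐍(R) ≤ R := by
    intro y hy
    have h3 : y ∈ R ⊔ 𝐂(R) := h1 ▸ mem_sup_left hy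
    obtain ⟨r, hr, c, hc', rfl⟩ := (Core.mem_sup_of_le_normalizer_left (cent_le_norm R)).1 h3
    have h4 : c ∈ S := (mul_mem_cancel_left (hR hr)).1 (hQ hy.1)
    have h5 : zpowers c ≤ R ⊓ 𝐂(R) := hc.le_of_normalizes (hS.to_le (zpowers_le.2 h4))
      (zpowers_le.2 hc') (zpowers_le.2 (cent_le_norm _ (cent_anti inf_le_left hc')))
    exact mul_mem hr (h5 (mem_zpowers c)).1
  by_contra hQR
  have h3 := lt_inf_normalizer_of_lt (hS.to_le (sup_le hR hQ : R ⊔ Q ≤ S))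
    (lt_of_le_of_ne le_sup_left fun e => hQR (e ▸ le_sup_right) : R < R ⊔ Q)
  refine h3.not_ge fun y hy => ?_
  obtain ⟨r, hr, c, hc', rfl⟩ := (Core.mem_sup_of_le_normalizer_right (hR.trans hSQ)).1 hy.1
  exact mul_mem hr (h2 ⟨hc', (mul_mem_cancel_left (le_normalizer hr)).1 hy.2⟩)

/-- A section `Qd(p)` gives a section `SL₂(p)` in the automizer of a `p`-subgroup. -/
theorem exists_automizer_SL2_of_involves_qd {G : Type*} [Group G] [Finite G]
    (h : Involves (qd p) G) : ∃ Q : Subgroup G, IsPGroup p Q ∧ ∃ (H K : Subgroup G)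
      (_ : (K.subgroupOf H).Normal), 𝐂(Q) ≤ K ∧ K ≤ H ∧ H ≤ 𝐍(Q) ∧
        Nonempty ((H ⧸ K.subgroupOf H) ≃* SL(2, ZMod p)) := by
  obtain ⟨P, π, hP, hπ, hV, hh⟩ := (Fusion.affType_qd p).gSec_of_involves h
  let ι : SL(2, ZMod p) →* qd p := MonoidHom.mk' (fun A => qdMk A 0) fun A B => by
    rw [qdMk_mul, Matrix.mulVec_zero, add_zero]
  let Γ : Subgroup (G × SL(2, ZMod p)) :=
    { carrier := {y | y.1 ∈ 𝐍(P) ∧ ∀ x ∈ P, π (y.1 * x * y.1⁻¹) = ι y.2 * π x * (ι y.2)⁻¹}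
      one_mem' := ⟨one_mem _, fun x _ => by simp⟩
      mul_mem' := fun {a b} ha hb => ⟨mul_mem ha.1 hb.1, fun x hx => by
        have := ha.2 _ ((mem_normalizer_iff.1 hb.1 x).1 hx)
        rw [hb.2 x hx] at this
        simp only [Prod.fst_mul, Prod.snd_mul, map_mul, mul_inv_rev]
        simpa only [mul_assoc] using this⟩
      inv_mem' := fun {a} ha => ⟨inv_mem ha.1, fun x hx => by
        have := ha.2 _ ((mem_normalizer_iff''.1 ha.1 x).1 hx)
        simp only [Prod.fst_inv, Prod.snd_inv, map_inv, inv_inv]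
        rw [show a.1 * (a.1⁻¹ * x * a.1) * a.1⁻¹ = x by group] at this
        rw [this]; group⟩ }
  have hi : Function.Injective ((MonoidHom.fst G SL(2, ZMod p)).comp Γ.subtype) := by
    refine (injective_iff_map_eq_one _).2 fun y hy => Subtype.ext (Prod.ext hy ?_)
    have h1 : ι y.1.2 ∈ (qdLin p).ker := centralizer_ker_qdLin_le (mem_cent_iff.2 fun v hv => by
      obtain ⟨e, rfl⟩ := mem_ker_qdLin.1 hv
      have h2 : qdMk 1 e ∈ Fusion.img P π := by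
        rw [hV, Fusion.mem_transl_iff, coe_qdMk]
        simp
      obtain ⟨x, hx, h3⟩ := hπ.mem_img.1 h2
      have h4 := y.2.2 x hx
      rw [show y.1.1 = 1 from hy, one_mul, inv_one, mul_one, h3] at h4
      exact h4.symm)
    exact (qdLin_qdMk _ _).symm.trans h1
  let e := MonoidHom.ofInjective hi
  let φ := ((MonoidHom.snd G SL(2, ZMod p)).comp Γ.subtype).comp e.symm.toMonoidHom
  have hφ : Function.Surjective φ := fun A => by
    obtain ⟨g, hg, h1⟩ := hh (ι A)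
    exact ⟨e ⟨(g, A), hg, h1⟩, by simp [φ]⟩
  have hK : (φ.ker.map (Subgroup.subtype _)).subgroupOf _ = φ.ker :=
    comap_map_eq_self_of_injective (subtype_injective _) _
  have hn : ((φ.ker.map (Subgroup.subtype _)).subgroupOf
      ((MonoidHom.fst G SL(2, ZMod p)).comp Γ.subtype).range).Normal := by
    rw [hK]; infer_instance
  refine ⟨P, hP, _, φ.ker.map (Subgroup.subtype _), hn, fun c hc => ?_,
    map_subtype_le _, ?_, ⟨(QuotientGroup.quotientMulEquivOfEq hK).trans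
      (QuotientGroup.quotientKerEquivOfSurjective φ hφ)⟩⟩
  · exact ⟨e ⟨(c, 1), cent_le_norm P hc, fun x hx => by simp [mem_cent_iff.1 hc x hx]⟩,
      by simp [φ], rfl⟩
  · rintro _ ⟨y, rfl⟩
    exact y.2.1

end CfsgLib.ZJ
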